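import Cfsg.Agent.H897.X3.Base
import Cfsg.Agent.H225.Gen.NS

/-!
# S2187, X4, `E₈`: a root against a base of type `A₄` (helper418)

* `to_std4` : `W(E₈)` is transitive on the chains `a₁ - a₂ - a₃ - a₄` of roots;
* `a4x` : there is a root `x` with `⟨x, a₁⟩ = 1`, `⟨x, aᵢ⟩ = 0` for `i = 2, 3, 4`.
-/

set_option autoImplicit false
set_option linter.unusedSectionVars false

namespace Cfsg.Agent.H418.Mono

open CoxeterSystem Cfsg Cfsg.Lie Cfsg.Lie.ChevalleyDatum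
open Cfsg.Agent.ChevalleyStructure Cfsg.Agent.ChevalleyStructure.Elts Cfsg.Agent.ChevalleyStructure.CoxeterGeom
  Cfsg.Agent.ChevalleyStructure.CoxeterGeomTypes Cfsg.Agent.ChevalleyStructure.NPerm
open Cfsg.Agent.Tits.Roots Cfsg.Agent.Tits.Core Cfsg.Agent.Nodes Cfsg.Agent.Nodes.Reps
  Cfsg.Agent.Nodes.RGDChev Cfsg.Agent.Nodes.SubComb Cfsg.Agent.Nodes.Coroot Cfsg.Agent.Nodes.Comb
open Cfsg.Agent.H897.T5Lat (Frm bf bf_apply)
open Cfsg.Agent.H897.T5Conn (Par)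
open Cfsg.Agent.H897.X3
open Cfsg.Agent.H225.Gen (LL LL_root LL_rep hi_E8)

/-- the additional root -/
def vx : Fin 8 → ℤ := ![1, 3, 3, 5, 4, 3, 2, 1]

theorem vals4 : (∀ j, b8 (sr 7) (sr j) = (![0, 0, 0, 0, 0, 0, -1, 2] : Fin 8 → ℤ) j) ∧
    (∀ j, b8 (sr 6) (sr j) = (![0, 0, 0, 0, 0, -1, 2, -1] : Fin 8 → ℤ) j) ∧
    (∀ j, b8 (-sr 7) (sr j) = (![0, 0, 0, 0, 0, 0, 1, -2] : Fin 8 → ℤ) j) ∧
    (∀ j, b8 (-sr 6) (sr j) = (![0, 0, 0, 0, 0, 1, -2, 1] : Fin 8 → ℤ) j) ∧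
    b8 vx th = 1 ∧ b8 vx (-sr 7) = 0 ∧ b8 vx (-sr 6) = 0 ∧ b8 vx (-sr 5) = 0 := by
  decide +kernel

section Chev

variable {M : CoxeterMatrix (Fin 8)} (hp : IsType chevE8 8 M) {W : Type*} [Group W] (cs : CoxeterSystem M W)

theorem isRoot_vx : IsRoot cs hp.isCartan vx := by
  refine (isRoot_iff hp cs _).2 ?_
  decide +kernel

/-- a chain of type `A₄` -/
structure Ch (a b c d : Fin 8 → ℤ) : Prop where
  ra : IsRoot cs hp.isCartan a
  rb : IsRoot cs hp.isCartan b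
  rc : IsRoot cs hp.isCartan c
  rd : IsRoot cs hp.isCartan d
  ab : b8 b a = -1
  ac : b8 c a = 0
  ad : b8 d a = 0
  bc : b8 c b = -1
  bd : b8 d b = 0
  cd : b8 d c = -1

variable {cs}

variable {hp} in
theorem Ch.rep {a b c d : Fin 8 → ℤ} (H : Ch hp cs a b c d) (w : W) :
    Ch hp cs (rep cs hp.isCartan w a) (rep cs hp.isCartan w b) (rep cs hp.isCartan w c) (rep cs hp.isCartan w d) where
  ra := H.ra.act w
  rb := H.rb.act w
  rc := H.rc.act w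
  rd := H.rd.act w
  ab := by rw [inv8 hp]; exact H.ab
  ac := by rw [inv8 hp]; exact H.ac
  ad := by rw [inv8 hp]; exact H.ad
  bc := by rw [inv8 hp]; exact H.bc
  bd := by rw [inv8 hp]; exact H.bd
  cd := by rw [inv8 hp]; exact H.cd

/-- the standard chain -/
theorem to_std4 {a b c d : Fin 8 → ℤ} (H : Ch hp cs a b c d) :
    ∃ w : W, rep cs hp.isCartan w a = th ∧ rep cs hp.isCartan w b = -sr 7 ∧ rep cs hp.isCartan w c = -sr 6 ∧
      rep cs hp.isCartan w d = -sr 5 := by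
  obtain ⟨vth, -, -, -, -⟩ := vals
  obtain ⟨v7, v6, v7', v6', -⟩ := vals4
  -- first
  obtain ⟨w1, hw1⟩ := trans8 hp cs H.ra (isRoot_th hp cs)
  have H1 := H.rep w1
  rw [hw1] at H1
  -- second
  obtain ⟨w2, hw2, hd2⟩ := dom8 hp (cs := cs) {i | i ≠ 7} (rep cs hp.isCartan w1 b)
  have f2 : rep cs hp.isCartan w2 th = th := fix8 hp (fun i hi => by
    rw [vth]; revert hi; fin_cases i <;> simp) hw2
  have H2 := H1.rep w2
  rw [f2] at H2
  have e2 : rep cs hp.isCartan w2 (rep cs hp.isCartan w1 b) = -sr 7 := by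
    refine neg8 hp H2.rb ?_
    have k := H2.ab
    rw [b8_th] at k
    have g7 := ge8 hp H2.rb 7
    have d0 := hd2 0 (by decide)
    have d1 := hd2 1 (by decide)
    have d2 := hd2 2 (by decide)
    have d3 := hd2 3 (by decide)
    have d4 := hd2 4 (by decide)
    have d5 := hd2 5 (by decide)
    have d6 := hd2 6 (by decide)
    omega
  rw [e2] at H2
  -- third
  obtain ⟨w3, hw3, hd3⟩ := dom8 hp (cs := cs) {i | i ≠ 7 ∧ i ≠ 6} (rep cs hp.isCartan w2 (rep cs hp.isCartan w1 c))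
  have f3 : rep cs hp.isCartan w3 th = th := fix8 hp (fun i hi => by
    rw [vth]; revert hi; fin_cases i <;> simp) hw3
  have f3' : rep cs hp.isCartan w3 (-sr 7) = -sr 7 := fix8 hp (fun i hi => by
    rw [v7']; revert hi; fin_cases i <;> simp) hw3
  have H3 := H2.rep w3
  rw [f3, f3'] at H3
  have e3 : rep cs hp.isCartan w3 (rep cs hp.isCartan w2 (rep cs hp.isCartan w1 c)) = -sr 6 := by
    refine neg8 hp H3.rc ?_
    have k := H3.ac
    have k' := H3.bc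
    rw [b8_th] at k
    rw [b8_neg] at k'
    have g6 := ge8 hp H3.rc 6
    have d0 := hd3 0 (by decide)
    have d1 := hd3 1 (by decide)
    have d2 := hd3 2 (by decide)
    have d3 := hd3 3 (by decide)
    have d4 := hd3 4 (by decide)
    have d5 := hd3 5 (by decide)
    omega
  rw [e3] at H3
  -- fourth
  obtain ⟨w4, hw4, hd4⟩ := dom8 hp (cs := cs) {i | i ≠ 7 ∧ i ≠ 6 ∧ i ≠ 5}
    (rep cs hp.isCartan w3 (rep cs hp.isCartan w2 (rep cs hp.isCartan w1 d)))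
  have f4 : rep cs hp.isCartan w4 th = th := fix8 hp (fun i hi => by
    rw [vth]; revert hi; fin_cases i <;> simp) hw4
  have f4' : rep cs hp.isCartan w4 (-sr 7) = -sr 7 := fix8 hp (fun i hi => by
    rw [v7']; revert hi; fin_cases i <;> simp) hw4
  have f4'' : rep cs hp.isCartan w4 (-sr 6) = -sr 6 := fix8 hp (fun i hi => by
    rw [v6']; revert hi; fin_cases i <;> simp) hw4
  have H4 := H3.rep w4
  rw [f4, f4', f4''] at H4
  have e4 : rep cs hp.isCartan w4 (rep cs hp.isCartan w3 (rep cs hp.isCartan w2 (rep cs hp.isCartan w1 d))) = -sr 5 := by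
    refine neg8 hp H4.rd ?_
    have k := H4.ad
    have k' := H4.bd
    have k'' := H4.cd
    rw [b8_th] at k
    rw [b8_neg] at k'
    rw [b8_neg] at k''
    have g5 := ge8 hp H4.rd 5
    have d0 := hd4 0 (by decide)
    have d1 := hd4 1 (by decide)
    have d2 := hd4 2 (by decide)
    have d3 := hd4 3 (by decide)
    have d4 := hd4 4 (by decide)
    omega
  refine ⟨w4 * (w3 * (w2 * w1)), ?_, ?_, ?_, ?_⟩
  · rw [rep_mul_apply, rep_mul_apply, rep_mul_apply, hw1, f2, f3, f4]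
  · rw [rep_mul_apply, rep_mul_apply, rep_mul_apply, e2, f3', f4']
  · rw [rep_mul_apply, rep_mul_apply, rep_mul_apply, e3, f4'']
  · rw [rep_mul_apply, rep_mul_apply, rep_mul_apply, e4]

/-- **`W(E₈)` is transitive on the chains of type `A₄`.** -/
theorem trans_A4 {a b c d a' b' c' d' : Fin 8 → ℤ} (H : Ch hp cs a b c d) (H' : Ch hp cs a' b' c' d') :
    ∃ w : W, rep cs hp.isCartan w a = a' ∧ rep cs hp.isCartan w b = b' ∧ rep cs hp.isCartan w c = c' ∧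
      rep cs hp.isCartan w d = d' := by
  obtain ⟨w, h1, h2, h3, h4⟩ := to_std4 hp H
  obtain ⟨w', h1', h2', h3', h4'⟩ := to_std4 hp H'
  refine ⟨w'⁻¹ * w, ?_, ?_, ?_, ?_⟩
  · rw [rep_mul_apply, h1, ← h1', rep_inv_apply]
  · rw [rep_mul_apply, h2, ← h2', rep_inv_apply]
  · rw [rep_mul_apply, h3, ← h3', rep_inv_apply]
  · rw [rep_mul_apply, h4, ← h4', rep_inv_apply]

theorem cpr_b8 [Finite W] {x y : Fin 8 → ℤ} (hy : IsRoot cs hp.isCartan y) : cpr cs hp.isCartan x y = b8 x y := by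
  rw [← (frm8 hp cs).cpr x y hy, bf_eq]

theorem b8_comm (x y : Fin 8 → ℤ) : b8 x y = b8 y x := by
  simp only [b8]
  rw [Finset.sum_comm]
  refine Finset.sum_congr rfl fun i _ => Finset.sum_congr rfl fun j _ => ?_
  have h1 : ∀ i j, A8 i j = A8 j i := by decide +kernel
  rw [h1 j i]
  ring

end Chev

section LLs

variable {M : CoxeterMatrix (Fin 8)} {hp : IsType chevE8 8 M} {W : Type*} [Group W] {cs : CoxeterSystem M W}

/-- **A root against a chain of type `A₄`** -/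
theorem a4x_root {a1 a2 a3 a4 : Fin 8 → ℤ} (ha1 : IsRoot cs hp.isCartan a1) (ha2 : IsRoot cs hp.isCartan a2)
    (ha3 : IsRoot cs hp.isCartan a3) (ha4 : IsRoot cs hp.isCartan a4)
    (h12 : cpr cs hp.isCartan a1 a2 = -1) (h23 : cpr cs hp.isCartan a2 a3 = -1) (h34 : cpr cs hp.isCartan a3 a4 = -1)
    (h13 : cpr cs hp.isCartan a1 a3 = 0) (h14 : cpr cs hp.isCartan a1 a4 = 0) (h24 : cpr cs hp.isCartan a2 a4 = 0) :
    ∃ x, IsRoot cs hp.isCartan x ∧ cpr cs hp.isCartan x a1 = 1 ∧ cpr cs hp.isCartan x a2 = 0 ∧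
      cpr cs hp.isCartan x a3 = 0 ∧ cpr cs hp.isCartan x a4 = 0 := by
  have := finite_W hp cs
  rw [cpr_b8 hp ha2] at h12
  rw [cpr_b8 hp ha3] at h23 h13
  rw [cpr_b8 hp ha4] at h34 h14 h24
  have H : Ch hp cs a1 a2 a3 a4 := ⟨ha1, ha2, ha3, ha4, by rw [b8_comm, h12], by rw [b8_comm, h13],
    by rw [b8_comm, h14], by rw [b8_comm, h23], by rw [b8_comm, h24], by rw [b8_comm, h34]⟩
  obtain ⟨w, h1, h2, h3, h4⟩ := to_std4 hp H
  obtain ⟨-, -, -, -, x1, x2, x3, x4⟩ := vals4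
  refine ⟨rep cs hp.isCartan w⁻¹ vx, (isRoot_vx hp cs).act _, ?_, ?_, ?_, ?_⟩
  · rw [cpr_b8 hp ha1, ← inv8 hp w, rep_apply_inv, h1, x1]
  · rw [cpr_b8 hp ha2, ← inv8 hp w, rep_apply_inv, h2, x2]
  · rw [cpr_b8 hp ha3, ← inv8 hp w, rep_apply_inv, h3, x3]
  · rw [cpr_b8 hp ha4, ← inv8 hp w, rep_apply_inv, h4, x4]

/-- all roots are long -/
theorem LL8 {x : Fin 8 → ℤ} (hx : IsRoot cs hp.isCartan x) : x ∈ LL cs hp := by
  have h0 := Cfsg.Agent.H225.Gen.th_mem hp cs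
  obtain ⟨w, hw⟩ := trans8 hp cs (LL_root hi_E8 hp cs h0) hx
  rw [← hw]
  exact LL_rep hp cs h0 w

/-- **A root against a chain of type `A₄`** -/
theorem a4x {a1 a2 a3 a4 : Fin 8 → ℤ} (ha1 : a1 ∈ LL cs hp) (ha2 : a2 ∈ LL cs hp)
    (ha3 : a3 ∈ LL cs hp) (ha4 : a4 ∈ LL cs hp)
    (h12 : cpr cs hp.isCartan a1 a2 = -1) (h23 : cpr cs hp.isCartan a2 a3 = -1) (h34 : cpr cs hp.isCartan a3 a4 = -1)
    (h13 : cpr cs hp.isCartan a1 a3 = 0) (h14 : cpr cs hp.isCartan a1 a4 = 0) (h24 : cpr cs hp.isCartan a2 a4 = 0) :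
    ∃ x ∈ LL cs hp, cpr cs hp.isCartan x a1 = 1 ∧ cpr cs hp.isCartan x a2 = 0 ∧
      cpr cs hp.isCartan x a3 = 0 ∧ cpr cs hp.isCartan x a4 = 0 := by
  obtain ⟨x, hx, h⟩ := a4x_root (hp := hp) (LL_root hi_E8 hp cs ha1) (LL_root hi_E8 hp cs ha2) (LL_root hi_E8 hp cs ha3)
    (LL_root hi_E8 hp cs ha4) h12 h23 h34 h13 h14 h24
  exact ⟨x, LL8 hx, h⟩

end LLs

end Cfsg.Agent.H418.Mono
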